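import Cfsg.Agent.Lib.Chev.Group.FieldFix
import Cfsg.Agent.Lib.Chev.Abstract.Kernel

/-! Centralizers and normalizers of subfield subgroups of a Chevalley group. -/
set_option autoImplicit false
set_option maxRecDepth 100000
open Cfsg.Lie
open scoped Matrix MatrixGroups

namespace CfsgLib.Chev.SubfieldNormalizer

open CfsgLib.Chev CfsgLib.Chev.Checks CfsgLib.Chev.Basic CfsgLib.Chev.FieldFix

variable {D : ChevalleyDatum} {F : Type*} [Field F]

/-- the linear group itself carries Steinberg's relations -/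
noncomputable def glSys (hD : D ∈ dataList) (F : Type*) [Field F] : Abstract.Sys hD F (GL D.Idx F) where
  X r t := xGL hD F r t
  add _ hr t u := Rel.xGL_add hD hr t u
  comm _ _ hr hs h1 h2 t u := Rel.comm_GL hD hr hs h1 h2 t u
  θ := MonoidHom.id _
  θX _ _ _ := rfl

theorem nW_diagonal (hD : D ∈ dataList) {l : List ℕ} (hl : ∀ i ∈ l, i < D.rank)
    (h : ∀ r, D.IsPosRoot r → D.IsPosRoot (N.act D l r)) : N.nW hD F l ∈ D.diagonalSubgroup F := by
  rw [← (glSys hD F).θ_nW hl]
  exact (glSys hD F).θ_Hbar ((glSys hD F).nW_mem_Hbar l.length l le_rfl hl h)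

theorem centralizer_eq_one (hD : D ∈ dataList) {g : GL D.Idx F} (hg : g ∈ D.group F)
    (hc : ∀ r < D.nroots, ∀ t : F, (t = 1 ∨ t = -1) → g * xGL hD F r t = xGL hD F r t * g) : g = 1 := by
  obtain ⟨b, hb, l, hl, k, hk, u, hu, e⟩ := Canonical.exists_form hD hg
  have hfix : ∀ r, D.IsPosRoot r → D.IsPosRoot (N.act D l r) := fun r hr => by
    refine (Checks.pos_or_neg hD (N.act_lt hD hl hr.1)).resolve_right fun hn => ?_
    have hx : xGL hD F r 1 ∈ RootGen.gen D F (Canonical.Minus D l) := RootGen.xGL_mem_gen hD ⟨hr, hn⟩ 1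
    have h1 : b * (N.nW hD F l * k) * (u * xGL hD F r 1) =
        (xGL hD F r 1 * b) * (N.nW hD F l * k) * u := by
      have := hc r hr.1 1 (Or.inl rfl)
      rw [e] at this
      calc _ = b * (N.nW hD F l * k) * u * xGL hD F r 1 := by group
        _ = _ := by rw [this]; group
    have h2 := (Canonical.minus_inj hD hl hk hb (mul_mem (Subgroup.mem_sup_left (xGL_mem_pos hD hr 1)) hb)
      (mul_mem hu hx) hu h1).2
    exact one_ne_zero ((XOne.x_eq_one_iff hD hr.1 (1 : F)).1 (congrArg Units.val (mul_eq_left.1 h2)))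
  have hgB : g ∈ D.borelSubgroup F := by
    have h1 : u ∈ D.posUnipotent F := (RootGen.gen_le hD fun r hr t => xGL_mem_pos hD hr.1 t) hu
    rw [e]
    exact mul_mem (mul_mem hb (mul_mem (Subgroup.mem_sup_right (nW_diagonal hD hl hfix)) (Subgroup.mem_sup_right hk)))
      (Subgroup.mem_sup_left h1)
  obtain ⟨l₀, hl₀, h₀⟩ := Opposite.exists_w0 hD
  have hn : Commute g (N.nW hD F l₀) := by
    clear h₀
    induction l₀ with
    | nil => rw [N.nW]; simp
    | cons i l₀ ih =>
      have hi := hl₀ i List.mem_cons_self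
      rw [N.nW_cons]
      refine Commute.mul_right ?_ (ih fun j hj => hl₀ j (List.mem_cons_of_mem _ hj))
      have c1 : ∀ r < D.nroots, ∀ t : F, (t = 1 ∨ t = -1) → Commute g (xGL hD F r t) := hc
      simp only [N.ni, nGL, inv_one]
      exact ((c1 _ (Rel.simple_lt hD hi) 1 (Or.inl rfl)).mul_right
        (c1 _ (Checks.neg_lt hD (Rel.simple_lt hD hi)) (-1) (Or.inr rfl))).mul_right
        (c1 _ (Rel.simple_lt hD hi) 1 (Or.inl rfl))
  have hgH : g ∈ D.diagonalSubgroup F := by
    refine (BH.borel_inf_negBorel hD).le (Subgroup.mem_inf.2 ⟨hgB, ?_⟩)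
    obtain ⟨v, hv, h, hh, e'⟩ := (BH.mem_borel_iff hD).1 hgB
    have e2 : g = N.nW hD F l₀ * g * (N.nW hD F l₀)⁻¹ := by rw [← hn.eq, mul_inv_cancel_right]
    rw [e2, ← e', show N.nW hD F l₀ * (v * h) * (N.nW hD F l₀)⁻¹ =
      (N.nW hD F l₀ * v * (N.nW hD F l₀)⁻¹) * (N.nW hD F l₀ * h * (N.nW hD F l₀)⁻¹) by group]
    refine mul_mem (Subgroup.mem_sup_left ?_) (Subgroup.mem_sup_right (N.diagonal_normal hD (N.nW_mem hD hl₀) hh))
    have hv' : v ∈ RootGen.gen D F (Canonical.Minus D l₀) := by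
      have : D.posUnipotent F ≤ RootGen.gen D F (Canonical.Minus D l₀) := by
        refine (Subgroup.closure_le _).2 ?_
        rintro x ⟨r, t, hr, hx⟩
        obtain rfl : x = xGL hD F r t := Units.ext hx
        exact RootGen.xGL_mem_gen hD ⟨hr, (h₀ r hr.1).2 hr⟩ t
      exact this hv
    simpa using Canonical.conj_minus hD hl₀ (one_mem _) hv'
  exact Opposite.xGL_centralizer_trivial hD hgH fun r hr => hc r hr 1 (Or.inl rfl)

theorem centralizer_and_normalizer (hD : D ∈ dataList) (σ : F ≃+* F) (K : Subgroup (GL D.Idx F))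
    (hKG : K ≤ D.group F) (hLK : ∀ r t, σ t = t → xGL hD F r t ∈ K)
    (hKfix : ∀ g ∈ K, mapGL D σ.toRingHom g = g) :
    D.group F ⊓ Subgroup.centralizer (K : Set (GL D.Idx F)) = ⊥ ∧
    ∀ g ∈ D.group F, (g ∈ Subgroup.normalizer (K : Set (GL D.Idx F)) ↔ mapGL D σ.toRingHom g = g) := by
  set s := mapGL D σ.toRingHom with hs
  have hcent : ∀ g ∈ D.group F, (∀ x ∈ K, g * x = x * g) → g = 1 := fun g hg hc =>
    centralizer_eq_one hD hg fun r _ t ht =>
      hc _ (hLK r t (by rcases ht with rfl | rfl <;> simp))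
  refine ⟨eq_bot_iff.2 fun g hg => Subgroup.mem_bot.2 (hcent g hg.1 fun x hx =>
    (Subgroup.mem_centralizer_iff.1 hg.2 x hx).symm), fun g hg => ⟨fun hN => ?_, fun hfix => ?_⟩⟩
  · have hz : g⁻¹ * s g = 1 := by
      refine hcent _ (mul_mem (inv_mem hg) (map_group_le hD σ.toRingHom ⟨g, hg, rfl⟩)) fun x hx => ?_
      have h1 := hKfix _ ((Subgroup.mem_normalizer_iff.1 hN x).1 hx)
      rw [map_mul, map_mul, map_inv, hKfix x hx] at h1
      calc g⁻¹ * s g * x = g⁻¹ * (s g * x * (s g)⁻¹) * s g := by group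
        _ = _ := by rw [h1]; group
    exact (inv_mul_eq_one.1 hz).symm
  set L := Subgroup.closure {x : GL D.Idx F | ∃ r t, σ t = t ∧ x = xGL hD F r t}
  have hLK' : L ≤ K := (Subgroup.closure_le _).2 (by rintro _ ⟨r, t, ht, rfl⟩; exact hLK r t ht)
  have hLx : ∀ r t, σ t = t → xGL hD F r t ∈ L := fun r t ht => Subgroup.subset_closure ⟨r, t, ht, rfl⟩
  have hpos : ∀ v ∈ D.posUnipotent F, s v = v → v ∈ L := by
    intro v hv hfv
    obtain ⟨t, ⟨ht0, htv⟩, hu⟩ := U.exists_unique_prod hD hv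
    have h2 : (fun r => σ (t r)) = t := by
      refine hu _ ⟨fun r hr => by simp [ht0 r hr], ?_⟩
      conv_lhs => rw [← hfv, htv]
      rw [U.prodL, map_list_prod, List.map_map]
      refine congrArg List.prod (List.map_congr_left fun r _ => ?_)
      exact map_xGL hD σ.toRingHom r (t r)
    rw [htv]
    refine Subgroup.list_prod_mem _ fun x hx => ?_
    obtain ⟨r, -, rfl⟩ := List.mem_map.1 hx
    exact hLx r _ (congrFun h2 r)
  have hnW : ∀ l : List ℕ, N.nW hD F l ∈ L := by
    intro l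
    induction l with
    | nil => simp [N.nW]
    | cons i l ih =>
      rw [N.nW_cons]
      refine mul_mem ?_ ih
      simp only [N.ni, nGL, inv_one]
      exact mul_mem (mul_mem (hLx _ _ (map_one σ)) (hLx _ _ (by simp))) (hLx _ _ (map_one σ))
  have hHL : ∀ h ∈ D.diagonalSubgroup F, s h = h → ∀ x ∈ L, h * x * h⁻¹ ∈ L := by
    intro h hh hf x hx
    have hle : L ≤ L.comap (MulAut.conj h).toMonoidHom := (Subgroup.closure_le _).2 (by
      rintro _ ⟨r, t, ht, rfl⟩
      rw [SetLike.mem_coe, Subgroup.mem_comap, MulEquiv.coe_toMonoidHom, MulAut.conj_apply]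
      by_cases hr : r < D.nroots
      · obtain ⟨a, -, ha⟩ := BH.conj_x hD hh r hr
        rw [ha]
        refine hLx r _ ?_
        have e := congrArg s (ha 1)
        rw [map_mul, map_mul, map_inv, hf, hs, map_xGL, map_xGL, mul_one] at e
        simp only [RingEquiv.toRingHom_eq_coe, RingHom.coe_coe, map_one] at e
        rw [ha, mul_one] at e
        have e3 : xGL hD F r (σ a + -a) = 1 := by rw [← Rel.xGL_add hD hr, ← e, ← Rel.xGL_inv hD hr, mul_inv_cancel]
        have := (XOne.x_eq_one_iff hD hr _).1 (congrArg Units.val e3)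
        rw [map_mul, ht, show σ a = a by linear_combination this]
      · rw [show xGL hD F r t = 1 from Units.ext ((xGL_val hD r t).trans (dif_neg hr)), mul_one, mul_inv_cancel]
        exact one_mem _)
    exact hle hx
  have hdec : ∀ g ∈ D.group F, s g = g → ∃ x ∈ L, ∃ h ∈ D.diagonalSubgroup F, s h = h ∧ g = x * h := by
    intro g hg hfix
    obtain ⟨b, hb, l, hl, k, hk, u, hu, rfl⟩ := Canonical.exists_form hD hg
    set w := N.nW hD F l with hw
    have hwk : w * k * w⁻¹ ∈ D.borelSubgroup F :=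
      Subgroup.mem_sup_right (N.diagonal_normal hD (N.nW_mem (F := F) hD hl) hk)
    set b' := b * (w * k * w⁻¹) with hb'
    have hb'm : b' ∈ D.borelSubgroup F := mul_mem hb hwk
    have hform : b * (w * k) * u = b' * (w * 1) * u := by rw [hb']; group
    rw [hform] at hfix ⊢
    rw [mul_one, map_mul, map_mul, show s w = w from map_nW hD σ.toRingHom l] at hfix
    obtain ⟨e1, e2⟩ := Canonical.minus_inj hD hl (one_mem _) (map_borel hD _ hb'm) hb'm (map_gen hD _ hu) hu
      (by simpa only [mul_one] using hfix)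
    obtain ⟨v, hv, h, hh, hvh⟩ := (BH.mem_borel_iff hD).1 hb'm
    have hsb : s v * s h = v * h := by rw [← map_mul, hvh]; exact e1
    have h1 : v⁻¹ * s v = h * (s h)⁻¹ := by
      calc v⁻¹ * s v = v⁻¹ * (s v * s h) * (s h)⁻¹ := by group
        _ = _ := by rw [hsb]; group
    have h2 : v⁻¹ * s v ∈ D.posUnipotent F ⊓ D.diagonalSubgroup F :=
      Subgroup.mem_inf.2 ⟨mul_mem (inv_mem hv) (map_pos hD _ hv),
        h1 ▸ mul_mem hh (inv_mem (map_diagonal hD _ hh))⟩
    rw [BH.pos_inf_diagonal hD, Subgroup.mem_bot] at h2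
    have hsv : s v = v := (inv_mul_eq_one.1 h2).symm
    rw [hsv] at hsb
    have hsh : s h = h := mul_left_cancel hsb
    set h' := w⁻¹ * h * w with hh'
    have hh'm : h' ∈ D.diagonalSubgroup F := by
      have := N.diagonal_normal hD (inv_mem (N.nW_mem (F := F) hD hl)) hh
      rwa [inv_inv] at this
    have hsh' : s h' = h' := by rw [hh', map_mul, map_mul, map_inv, hsh, show s w = w from map_nW hD σ.toRingHom l]
    refine ⟨v * w * (h' * u * h'⁻¹), mul_mem (mul_mem (hpos v hv hsv) (hnW l))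
      (hHL h' hh'm hsh' u (hpos u ((RootGen.gen_le hD fun r hr t => xGL_mem_pos hD hr.1 t) hu) e2)),
      h', hh'm, hsh', ?_⟩
    rw [← hvh, hh']; group
  have key : ∀ y ∈ D.group F, s y = y → ∀ x ∈ K, y * x * y⁻¹ ∈ K := by
    intro y hy hfy x hx
    obtain ⟨a, ha, h, hh, hsh, rfl⟩ := hdec y hy hfy
    obtain ⟨a₁, ha₁, h₁, hh₁, -, rfl⟩ := hdec x (hKG hx) (hKfix x hx)
    have hh₁K : h₁ ∈ K := by
      have := mul_mem (inv_mem (hLK' ha₁)) hx
      rwa [inv_mul_cancel_left] at this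
    rw [show a * h * (a₁ * h₁) * (a * h)⁻¹ = a * ((h * a₁ * h⁻¹) * (h * h₁ * h⁻¹)) * a⁻¹ by group,
      BH.diagonal_comm hD hh hh₁, mul_inv_cancel_right]
    exact mul_mem (mul_mem (hLK' ha) (mul_mem (hLK' (hHL h hh hsh a₁ ha₁)) hh₁K)) (inv_mem (hLK' ha))
  rw [Subgroup.mem_normalizer_iff]
  intro x
  refine ⟨key g hg hfix x, fun hx => ?_⟩
  have := key g⁻¹ (inv_mem hg) (by rw [map_inv, hfix]) _ hx
  rwa [show g⁻¹ * (g * x * g⁻¹) * g⁻¹⁻¹ = x by group] at this

end CfsgLib.Chev.SubfieldNormalizer
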