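import Cfsg.Agent.Lib.Chev.Group.RootPairs
import Cfsg.Agent.Lib.Chev.Group.Order

/-! The centraliser of a highest root element in the types with one node not orthogonal to the highest root. -/
set_option autoImplicit false
set_option maxRecDepth 100000
open Cfsg.Lie
open scoped Matrix MatrixGroups

namespace CfsgLib.Chev.TopCentralizer

open CfsgLib.Chev CfsgLib.Chev.Checks CfsgLib.Chev.Basic

variable {D : ChevalleyDatum} {F : Type*} [Field F]

/-- the combinatorial facts about the highest root -/
def topOK (D : ChevalleyDatum) (k0 : ℕ) (L : List ℕ) : Bool :=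
  decide (k0 < D.rank ∧ D.cartan k0 (D.nroots - 1) = 1) &&
  ((List.range D.rank).all fun a =>
    (decide (D.cartan a (D.nroots - 1) = 0) && (D.reflectRoot a (D.nroots - 1) == D.nroots - 1) &&
      L.contains (D.neg (D.simple a))) || (decide (a = k0) && decide (D.cartan a (D.nroots - 1) = 1))) &&
  (L.all fun s => decide (s < D.nroots) && (s != D.nroots - 1) && (s != D.neg (D.nroots - 1)) &&
    (D.commTerms (D.nroots - 1) s).isEmpty)

/-- the highest root dominates coefficientwise -/
def maxOK (D : ChevalleyDatum) (R : List ℕ) : Bool :=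
  (List.range D.rank).all fun j => (List.range D.nroots).all fun r =>
    decide (Lin.cf R j r ≤ Lin.cf R j (D.nroots - 1))

/-- the group of the statement -/
abbrev topGroup (D : ChevalleyDatum) (F : Type*) [Field F] (L : List ℕ) : Subgroup (GL D.Idx F) :=
  D.posUnipotent F ⊔ Subgroup.closure {g : GL D.Idx F | ∃ s ∈ L, ∃ c : F, (g : Matrix D.Idx D.Idx F) = D.x F s c}

theorem centralizer_top (hD : D ∈ dataList) {T : Tables.Tab} {R : List ℕ} (hT : Tables.Valid D T)
    (hL : Lin.ValidL D T R) (hmax : maxOK D R = true) {k0 : ℕ} {L : List ℕ} (hok : topOK D k0 L = true)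
    {t : GL D.Idx F} (ht : (t : Matrix D.Idx D.Idx F) = D.x F (D.nroots - 1) 1) :
    D.group F ⊓ Subgroup.centralizer {t} = topGroup D F L := by
  simp only [topOK, List.all_eq_true, List.mem_range, Bool.and_eq_true, Bool.or_eq_true, decide_eq_true_eq,
    beq_iff_eq, List.contains_iff_mem, bne_iff_ne, List.isEmpty_iff] at hok
  obtain ⟨⟨⟨hk0, hk1⟩, hA⟩, hB⟩ := hok
  simp only [maxOK, List.all_eq_true, List.mem_range, decide_eq_true_eq] at hmax
  have hn : D.nroots - 1 < D.nroots := by
    simp only [dataList, List.mem_cons, List.not_mem_nil, or_false] at hD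
    rcases hD with rfl | rfl | rfl | rfl | rfl | rfl | rfl <;> decide
  set r0 := D.nroots - 1 with hr0
  have htop : D.IsPosRoot r0 := (Weight.pos_iff hD hn).2 (by omega)
  obtain rfl : t = xGL hD F r0 1 := Units.ext ht
  set Q := topGroup D F L with hQ
  have hposQ : ∀ {x : GL D.Idx F}, x ∈ D.posUnipotent F → x ∈ Q := fun hx => Subgroup.mem_sup_left hx
  have hLQ : ∀ s ∈ L, ∀ c : F, xGL hD F s c ∈ Q := fun s hs c =>
    Subgroup.mem_sup_right (Subgroup.subset_closure ⟨s, hs, c, rfl⟩)
  have hnQ : ∀ a < D.rank, D.cartan a r0 = 0 → ∀ c : F, nGL hD F (D.simple a) c ∈ Q := by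
    intro a ha hc c
    have hnegL : D.neg (D.simple a) ∈ L := by
      rcases hA a ha with h | h
      · exact h.2
      · omega
    exact mul_mem (mul_mem (hposQ (xGL_mem_pos hD (N.simple_pos hD ha) _)) (hLQ _ hnegL _))
      (hposQ (xGL_mem_pos hD (N.simple_pos hD ha) _))
  -- the subgroup centralises
  have hQc : Q ≤ D.group F ⊓ Subgroup.centralizer {xGL hD F r0 1} := by
    refine sup_le (fun v hv => Subgroup.mem_inf.2 ⟨le_trans le_sup_left (borel_le_group hD) hv, ?_⟩)
      ((Subgroup.closure_le _).2 ?_)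
    · rw [Subgroup.mem_centralizer_singleton_iff, ← mul_inv_eq_iff_eq_mul]
      exact RootPairs.pos_comm_top hD hv 1
    · rintro x ⟨s, hs, c, hx⟩
      obtain rfl : x = xGL hD F s c := Units.ext hx
      refine Subgroup.mem_inf.2 ⟨xGL_mem_group hD _ _, ?_⟩
      obtain ⟨⟨⟨h1, h2⟩, h3⟩, h4⟩ := hB s hs
      rw [Subgroup.mem_centralizer_singleton_iff, Rel.comm_GL hD hn h1 h2 h3 1 c]
      simp [ChevalleyDatum.commWord, h4, Rel.wordGL]
  -- the diagonal subgroup normalises
  have hHn : ∀ h ∈ D.diagonalSubgroup F, ∀ q ∈ Q, h * q * h⁻¹ ∈ Q := by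
    intro h hh
    have hle : Q ≤ Q.comap (MulAut.conj h).toMonoidHom := by
      refine sup_le ((Subgroup.closure_le _).2 ?_) ((Subgroup.closure_le _).2 ?_)
      · rintro x ⟨r, c, hr, hx⟩
        obtain rfl : x = xGL hD F r c := Units.ext hx
        obtain ⟨a, -, ha⟩ := BH.conj_x hD hh r hr.1
        show h * xGL hD F r c * h⁻¹ ∈ Q
        rw [ha]; exact hposQ (xGL_mem_pos hD hr _)
      · rintro x ⟨s, hs, c, hx⟩
        obtain rfl : x = xGL hD F s c := Units.ext hx
        obtain ⟨a, -, ha⟩ := BH.conj_x hD hh s (hB s hs).1.1.1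
        show h * xGL hD F s c * h⁻¹ ∈ Q
        rw [ha]; exact hLQ s hs _
    exact fun q hq => hle hq
  -- the diagonal elements which centralise
  have hHQ : ∀ h ∈ D.diagonalSubgroup F, h * xGL hD F r0 1 * h⁻¹ = xGL hD F r0 1 → h ∈ Q := by
    intro h hh hfix
    rw [← Torus.range_torusHom hD] at hh
    obtain ⟨c, rfl⟩ := hh
    let k : Fin D.rank := ⟨k0, hk0⟩
    have hrest : Torus.torusHom D F (Function.update c k 1) ∈ Q := by
      change Function.update c k 1 ∈ Q.comap (Torus.torusHom D F)
      rw [← Finset.univ_prod_mulSingle (Function.update c k 1)]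
      · refine Subgroup.prod_mem _ fun i _ => ?_
        rw [Subgroup.mem_comap]
        rcases eq_or_ne i k with rfl | hik
        · simp [one_mem]
        · rw [Function.update_of_ne hik, Torus.torus_simple hD]
          have hc : D.cartan i r0 = 0 := by
            rcases hA i i.2 with h | h
            · exact h.1.1
            · exact absurd (Fin.ext h.1) hik
          exact mul_mem (hnQ i i.2 hc _) (hnQ i i.2 hc _)
    have hsplit : Torus.torusHom D F c =
        hGL hD F (D.simple k) (c k) * Torus.torusHom D F (Function.update c k 1) := by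
      rw [← Torus.torus_simple hD, ← map_mul]
      congr 1
      funext i
      rcases eq_or_ne i k with rfl | hik
      · simp
      · simp [hik]
    have hsimp : D.simple k < D.nroots := Rel.simple_lt hD k.2
    have hq : _ ∈ Subgroup.centralizer {xGL hD F r0 1} := (hQc hrest).2
    rw [Subgroup.mem_centralizer_singleton_iff] at hq
    rw [hsplit, show ∀ a b x : GL D.Idx F, a * b * x * (a * b)⁻¹ = a * (b * x * b⁻¹) * a⁻¹ from
      fun a b x => by group, hq, mul_inv_cancel_right, Weight.h_conj_GL hD hsimp hn (c k).ne_zero] at hfix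
    have hp : D.pairing (D.simple k) r0 = 1 := by
      rw [Diag.pairing_simple hD k.2]
      exact hk1
    rw [hp, zpow_one, mul_one] at hfix
    have hck : c k = 1 := by
      refine Units.ext ?_
      have e : xGL hD F r0 ((c k : F) - 1) * xGL hD F r0 1 = xGL hD F r0 (c k : F) := by
        rw [Rel.xGL_add hD hn, sub_add_cancel]
      rw [hfix, mul_eq_right] at e
      exact sub_eq_zero.1 ((XOne.x_eq_one_iff hD hn _).1 (congrArg Units.val e))
    rw [show Function.update c k 1 = c by rw [← hck, Function.update_eq_self]] at hrest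
    exact hrest
  -- words fixing the highest root
  have hword : ∀ n, ∀ l : List ℕ, l.length ≤ n → (∀ i ∈ l, i < D.rank) → N.act D l r0 = r0 →
      ∃ q ∈ Q, ∃ h ∈ D.diagonalSubgroup F, N.nW hD F l = q * h := by
    intro n
    induction n using Nat.strong_induction_on with
    | _ n ih =>
      intro l hlen hl hfix
      rcases List.eq_nil_or_concat l with rfl | ⟨m, a, rfl⟩
      · exact ⟨1, one_mem _, 1, one_mem _, by simp [N.nW]⟩
      rw [List.concat_eq_append] at hlen hl hfix ⊢
      rw [List.length_append, List.length_singleton] at hlen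
      have ha : a < D.rank := hl a (by simp)
      have hm : ∀ j ∈ m, j < D.rank := fun j hj => hl j (List.mem_append_left _ hj)
      have hni : N.nW hD F [a] = N.ni hD F a := by simp [N.nW]
      rw [N.act_append, show N.act D [a] r0 = D.reflectRoot a r0 from rfl] at hfix
      rw [N.nW_append, hni]
      rcases hA a ha with hJ | hK
      · obtain ⟨⟨hc, hrefl⟩, -⟩ := hJ
        rw [hrefl] at hfix
        obtain ⟨q, hq, h, hh, he⟩ := ih (n - 1) (by omega) m (by omega) hm hfix
        have hna := N.diag_nW (F := F) hD (l := [a]) (by simpa using ha) hh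
        rw [hni] at hna
        refine ⟨q * N.ni hD F a, mul_mem hq (hnQ a ha hc 1), _, hna, ?_⟩
        rw [he]; group
      · by_cases hpos : D.IsPosRoot (N.act D m (D.simple a))
        · exfalso
          obtain ⟨j, hj, hjp⟩ := Weyl.exists_coef_pos hD hpos
          have hsimp := Rel.simple_lt hD ha
          have h1 := Weyl.coef_act hD hm hj (Rel.reflectRoot_lt hD ha hn)
          rw [hfix] at h1
          have h2 : ∑ b ∈ Finset.range D.rank, Weight.coef hD b (D.reflectRoot a r0) *
              Weight.coef hD j (N.act D m (D.simple b)) =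
              Weight.coef hD j (N.act D m r0) - Weight.coef hD j (N.act D m (D.simple a)) := by
            rw [Weyl.coef_act hD hm hj hn]
            rw [Finset.sum_congr rfl fun b hb => by
              rw [Weyl.coef_reflect hD ha (Finset.mem_range.1 hb) hn, hK.2, sub_mul, ite_mul, one_mul, zero_mul]]
            rw [Finset.sum_sub_distrib, Finset.sum_ite_eq, if_pos (Finset.mem_range.2 ha)]
          rw [h2] at h1
          have h3 := hmax j hj _ (N.act_lt hD hm hn)
          rw [← Weyl.coef_eq_cf hD hT hL hj (N.act_lt hD hm hn), ← Weyl.coef_eq_cf hD hT hL hj hn] at h3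
          omega
        · obtain ⟨l', hl', hlen', h, hh, he⟩ := N.deletion (F := F) hD m hm a ha hpos
          have hfix' : N.act D l' r0 = r0 := by
            obtain ⟨η, hη, e1⟩ := N.nW_conj (F := F) hD hl' hn
            obtain ⟨η', hη', e2⟩ := N.nW_conj (F := F) hD hl hn
            obtain ⟨x, hx, e3⟩ := BH.conj_x hD hh r0 hn
            have e4 := e2 1
            rw [N.nW_append, hni, he, N.act_append, show N.act D [a] r0 = D.reflectRoot a r0 from rfl, hfix,
              show N.nW hD F l' * h * xGL hD F r0 1 * (N.nW hD F l' * h)⁻¹ =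
                N.nW hD F l' * (h * xGL hD F r0 1 * h⁻¹) * (N.nW hD F l')⁻¹ by group, e3, e1] at e4
            refine N.xGL_inj hD (N.act_lt hD hl' hn) hn ?_ e4
            rcases hη with rfl | rfl <;> simp [hx]
          obtain ⟨q, hq, h', hh', he'⟩ := ih (n - 1) (by omega) l' (by omega) hl' hfix'
          exact ⟨q, hq, h' * h, mul_mem hh' hh, by rw [he, he']; group⟩
  refine le_antisymm (fun g hg => ?_) hQc
  obtain ⟨hgG, hgc⟩ := Subgroup.mem_inf.1 hg
  rw [Subgroup.mem_centralizer_singleton_iff, ← mul_inv_eq_iff_eq_mul] at hgc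
  obtain ⟨b, hb, l, hl, k, hk, u, hu, rfl⟩ := Canonical.exists_form hD hgG
  obtain ⟨v, hv, h, hh, rfl⟩ := (BH.mem_borel_iff hD).1 hb
  have hup : u ∈ D.posUnipotent F := (RootGen.gen_le hD fun r hr c => xGL_mem_pos hD hr.1 c) hu
  obtain ⟨a, ha0, ha⟩ := BH.conj_x hD hk r0 hn
  obtain ⟨η, hη, he⟩ := N.nW_conj (F := F) hD hl hn
  obtain ⟨a', ha'0, ha'⟩ := BH.conj_x hD hh (N.act D l r0) (N.act_lt hD hl hn)
  have hs : xGL hD F (N.act D l r0) (a' * ((η : F) * (a * 1))) = xGL hD F r0 1 := by
    have e : v * h * (N.nW hD F l * k) * u * xGL hD F r0 1 * (v * h * (N.nW hD F l * k) * u)⁻¹ =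
        v * xGL hD F (N.act D l r0) (a' * ((η : F) * (a * 1))) * v⁻¹ := by
      rw [show v * h * (N.nW hD F l * k) * u * xGL hD F r0 1 * (v * h * (N.nW hD F l * k) * u)⁻¹ =
        v * (h * (N.nW hD F l * (k * (u * xGL hD F r0 1 * u⁻¹) * k⁻¹) * (N.nW hD F l)⁻¹) * h⁻¹) * v⁻¹ by group,
        RootPairs.pos_comm_top hD hup, ha, he, ha']
    have h2 : v⁻¹ * xGL hD F r0 1 * v = xGL hD F r0 1 := by
      simpa using RootPairs.pos_comm_top hD (inv_mem hv) 1
    rw [e] at hgc
    rw [← h2, ← hgc]; group
  have hfixl : N.act D l r0 = r0 := by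
    refine N.xGL_inj hD (N.act_lt hD hl hn) hn ?_ hs
    rcases hη with rfl | rfl <;> simp [ha0, ha'0]
  obtain ⟨q, hq, h2, hh2, hl2⟩ := hword l.length l le_rfl hl hfixl
  set w := v * (h * q * h⁻¹) with hw
  have hwQ : w ∈ Q := mul_mem (hposQ hv) (hHn h hh q hq)
  have hg2 : v * h * (N.nW hD F l * k) * u = w * (h * h2 * k) * u := by rw [hl2, hw]; group
  rw [hg2]
  refine mul_mem (mul_mem hwQ (hHQ _ (mul_mem (mul_mem hh hh2) hk) ?_)) (hposQ hup)
  have h3 : w⁻¹ * (v * h * (N.nW hD F l * k) * u) * u⁻¹ ∈ Subgroup.centralizer {xGL hD F r0 1} :=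
    mul_mem (mul_mem (inv_mem (hQc hwQ).2) hg.2) (inv_mem (hQc (hposQ hup)).2)
  rw [hg2, show w⁻¹ * (w * (h * h2 * k) * u) * u⁻¹ = h * h2 * k by group,
    Subgroup.mem_centralizer_singleton_iff, ← mul_inv_eq_iff_eq_mul] at h3
  exact h3

end CfsgLib.Chev.TopCentralizer
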