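import Cfsg.Agent.Lib.Chev.Group.RootGen

/-! Certificates: separation of fundamental roots by the torus and commutator coverage of the non-fundamental
positive roots in every characteristic. -/
set_option autoImplicit false
set_option maxRecDepth 100000
open Cfsg.Lie

namespace CfsgLib.Chev.WeaklyClosed

open CfsgLib.Chev CfsgLib.Chev.Checks

/-- weight of a fundamental root at a torus exponent vector -/
def wt' (D : ChevalleyDatum) (e : List (ℕ × ℤ)) (i : ℕ) : ℤ := (e.map fun p => p.2 * D.cartan p.1 (D.simple i)).sum

/-- candidate exponent vectors -/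
def cands (n : ℕ) : List (List (ℕ × ℤ)) :=
  ((List.range n).map fun k => [(k, 1)]) ++
  (List.range n).flatMap fun k => (List.range n).flatMap fun l =>
    [[(k, 2), (l, 1)], [(k, 1), (l, 1)], [(k, 2), (l, 3)]] ++
    (List.range n).flatMap fun m => [[(k, 1), (l, 1), (m, 1)], [(k, 2), (l, 1), (m, 2)]]

/-- separation certificate -/
def sepOK (D : ChevalleyDatum) (two : Bool) : Bool :=
  (List.range D.rank).all fun i => (List.range D.rank).all fun j => i == j ||
    (cands D.rank).any fun e => (e.all fun p => decide (p.1 < D.rank)) &&
      wt' D e j == 0 && ((wt' D e i).natAbs == 1 || (two && (wt' D e i).natAbs == 2))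

/-- invertibility in characteristic class `κ` -/
def unitK (κ : ℕ) (M : ℤ) : Bool :=
  if κ = 0 then decide (1 ≤ M.natAbs) && decide (M.natAbs ≤ 3) else M % (κ : ℤ) != 0

/-- vanishing in characteristic class `κ` -/
def zeroK (κ : ℕ) (M : ℤ) : Bool := if κ = 0 then M == 0 else M % (κ : ℤ) == 0

/-- `q` is obtained from the commutator of `r` and `s` and the known roots `K` -/
def rule (D : ChevalleyDatum) (κ : ℕ) (two : Bool) (K : List ℕ) (r s q : ℕ) : Bool :=
  let T := D.commTerms r s
  match T.filter fun c => c.1 == q with
  | [(_, M, i, k)] =>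
      unitK κ M &&
        ((i == 1 || k == 1) && (T.filter fun c => c.1 != q).all (fun c => zeroK κ c.2.1 || K.contains c.1) ||
          (two && i == 1 && (k == 2 || k == 3) && (T.filter fun c => c.1 != q).all
            fun c => (c.2.2.1 == 1 && c.2.2.2 == 1) || zeroK κ c.2.1 || K.contains c.1))
  | _ => false

/-- coverage of one root -/
def good (D : ChevalleyDatum) (κ : ℕ) (two : Bool) (K : List ℕ) (q : ℕ) : Bool :=
  (List.range D.rank).any fun a => ((D.chain.getD (D.simple a) #[]).toList.map Prod.fst).any fun r =>
    decide (D.nroots / 2 ≤ r) && decide (r < q) && r != D.simple a && r != D.neg (D.simple a) &&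
      D.simple a != D.neg r && (rule D κ two K (D.simple a) r q || rule D κ two K r (D.simple a) q)

/-- the covered roots after `n` rounds -/
def clos (D : ChevalleyDatum) (κ : ℕ) (two : Bool) : ℕ → List ℕ
  | 0 => []
  | n + 1 =>
    let K := clos D κ two n
    (List.range D.nroots).filter fun q => decide (D.nroots / 2 ≤ q) && good D κ two K q

/-- the non-fundamental positive roots are all covered -/
def covOK (D : ChevalleyDatum) (two : Bool) (n : ℕ) : Bool :=
  [0, 2, 3].all fun κ => let K := clos D κ two n
    (List.range D.nroots).all fun q => decide (q < D.nroots / 2) ||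
      ((List.range D.rank).any fun a => D.simple a == q) || K.contains q

/-- the data needed, by type -/
theorem exists_cert {D : ChevalleyDatum} (hD : D ∈ dataList) :
    ∃ two n, sepOK D two = true ∧ covOK D two n = true ∧
      (two = true → D ∈ [chevG2, chevB2, chevD4, chevF4]) := by
  simp only [dataList, List.mem_cons, List.not_mem_nil, or_false] at hD
  rcases hD with rfl | rfl | rfl | rfl | rfl | rfl | rfl
  · exact ⟨true, 4, by decide +kernel, by decide +kernel, fun _ => by simp⟩
  · exact ⟨true, 3, by decide +kernel, by decide +kernel, fun _ => by simp⟩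
  · exact ⟨true, 1, by decide +kernel, by decide +kernel, fun _ => by simp⟩
  · exact ⟨true, 3, by decide +kernel, by decide +kernel, fun _ => by simp⟩
  · exact ⟨false, 1, by decide +kernel, by decide +kernel, nofun⟩
  · exact ⟨false, 1, by decide +kernel, by decide +kernel, nofun⟩
  · exact ⟨false, 1, by decide +kernel, by decide +kernel, nofun⟩

end CfsgLib.Chev.WeaklyClosed
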