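import Cfsg.Agent.Lib.Chev.Group.Parabolic
import Cfsg.Agent.Lib.Chev.Group.RootPairs
import Cfsg.Agent.Lib.Chev.XOne
import Cfsg.Agent.Lib.Chev.Abstract.Conj
import Cfsg.Agent.Lib.Chev.Group.WeaklyClosedData

/-! Subgroups of `U` that are weakly closed are unipotent radicals. -/
set_option autoImplicit false
set_option maxRecDepth 100000
open Cfsg.Lie
open scoped Matrix MatrixGroups commutatorElement

namespace CfsgLib.Chev.WeaklyClosed

open CfsgLib.Chev CfsgLib.Chev.Checks CfsgLib.Chev.Basic Parabolic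

variable {D : ChevalleyDatum} {F : Type*} [Field F]

/-- positive roots other than the `i`-th fundamental one -/
def Oth (D : ChevalleyDatum) (i r : ℕ) : Prop := D.IsPosRoot r ∧ r ≠ D.simple i

theorem simple_inj (hD : D ∈ dataList) {i j : ℕ} (hi : i < D.rank) (hj : j < D.rank) (h : D.simple i = D.simple j) :
    i = j := by
  by_contra hne
  have h1 := Weight.coef_simple hD hi hi
  rw [h, Weight.coef_simple hD hj hi, if_pos rfl, if_neg (Ne.symm hne)] at h1
  exact zero_ne_one h1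

theorem oth_term (hD : D ∈ dataList) {i r s : ℕ} (hi : i < D.rank) (hr : D.IsPosRoot r) (hs : Oth D i s)
    {c : ℕ × ℤ × ℕ × ℕ} (hc : c ∈ D.commTerms r s) : Oth D i c.1 := by
  have hpos := (Weight.commTerms_pos hD hr hs.1 hc).1
  obtain ⟨k, hk, hki, hks⟩ := RootGen.exists_other_coef hD hs.1 hs.2
  obtain ⟨hcl, hcc⟩ := RootGen.commTerms_coef hD hk hr.1 hs.1.1 hc
  have hcpos : 0 < Weight.coef hD k c.1 := by
    rw [hcc]
    exact add_pos_of_nonneg_of_pos (mul_nonneg (Int.natCast_nonneg _) (Weight.coef_nonneg hD hk hr))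
      (mul_pos (by exact_mod_cast (Orbit.commTerms_exp hc).2) hks)
  refine ⟨hpos, fun e => ?_⟩
  rw [e, Weight.coef_simple hD hi hk, if_neg (Ne.symm hki)] at hcpos
  exact lt_irrefl _ hcpos

theorem oth_closed (hD : D ∈ dataList) {i : ℕ} (hi : i < D.rank) : Canonical.Closed D (Oth D i) :=
  ⟨fun _ h => h.1, fun _ _ hr hs _ hc => oth_term hD hi hr.1 hs hc⟩

theorem pos_normalizes_oth (hD : D ∈ dataList) {i : ℕ} (hi : i < D.rank) :
    D.posUnipotent F ≤ Subgroup.normalizer (RootGen.gen D F (Oth D i) : Set (GL D.Idx F)) := by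
  refine RootGen.gen_le hD (P := D.IsPosRoot) fun r hr t => ?_
  have hP : ∀ s, Oth D i s → s < D.nroots ∧ s ≠ D.neg r ∧ ∀ c ∈ D.commTerms r s, Oth D i c.1 :=
    fun s hs => ⟨hs.1.1, fun e => N.not_pos_neg hD hr (e ▸ hs.1), fun c hc => oth_term hD hi hr hs hc⟩
  exact RootGen.rootSubgroup_le_normalizer (F := F) (P := Oth D i) hD hr.1 hP (BN.xGL_mem_root hD hr.1 t)

theorem oth_eq_rad (hD : D ∈ dataList) {i : ℕ} (hi : i < D.rank) :
    RootGen.gen D F (Oth D i) = D.unipotentRadical F {i} := by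
  have e : ∀ r, Oth D i r ↔ Rad D {i} r := fun r => by
    refine ⟨fun h => ⟨h.1, fun h' => ?_⟩, fun h => ⟨h.1, fun e => h.2 (e ▸ (simple_inSub hD hi).2 rfl)⟩⟩
    obtain ⟨k, hk, hki, hks⟩ := RootGen.exists_other_coef hD h.1 h.2
    exact hks.ne' (((inSub_iff hD).1 h').2 k hk (by simpa using hki))
  rw [unipotentRadical_eq]
  exact le_antisymm (RootGen.gen_mono fun r => (e r).1) (RootGen.gen_mono fun r => (e r).2)

theorem simple_not_mem_oth (hD : D ∈ dataList) {i : ℕ} (hi : i < D.rank) {t : F}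
    (h : xGL hD F (D.simple i) t ∈ RootGen.gen D F (Oth D i)) : t = 0 := by
  rw [oth_eq_rad hD hi] at h
  have h2 : xGL hD F (D.simple i) t ∈ D.leviSubgroup F {i} :=
    Subgroup.mem_sup_right (Subgroup.subset_closure ⟨D.simple i, t, (simple_inSub hD hi).2 rfl, rfl⟩)
  have h3 : xGL hD F (D.simple i) t ∈ (⊥ : Subgroup (GL D.Idx F)) := inf_levi (F := F) hD {i} ▸ ⟨h, h2⟩
  exact (XOne.x_eq_one_iff hD (Rel.simple_lt hD hi) t).1
    ((xGL_val hD _ t).symm.trans (congrArg Units.val (Subgroup.mem_bot.1 h3)))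

theorem exists_decomp (hD : D ∈ dataList) {i : ℕ} (hi : i < D.rank) {g : GL D.Idx F}
    (hg : g ∈ D.posUnipotent F) :
    ∃ t : F, (xGL hD F (D.simple i) t)⁻¹ * g ∈ RootGen.gen D F (Oth D i) := by
  have hsl := Rel.simple_lt hD hi
  have hle : D.posUnipotent F ≤ D.rootSubgroup F (D.simple i) ⊔ RootGen.gen D F (Oth D i) :=
    RootGen.gen_le hD (P := D.IsPosRoot) fun r hr t => by
      by_cases h : r = D.simple i
      · subst h; exact Subgroup.mem_sup_left (BN.xGL_mem_root hD hsl t)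
      · exact Subgroup.mem_sup_right (RootGen.xGL_mem_gen hD (show Oth D i r from ⟨hr, h⟩) t)
  have hn : D.rootSubgroup F (D.simple i) ≤ Subgroup.normalizer (RootGen.gen D F (Oth D i) : Set (GL D.Idx F)) :=
    fun x hx => by
      obtain ⟨t, rfl⟩ := (Rel.mem_rootSubgroup hD hsl).1 hx
      exact pos_normalizes_oth hD hi (xGL_mem_pos hD (N.simple_pos hD hi) t)
  have h := hle hg
  rw [← SetLike.mem_coe, Subgroup.coe_mul_of_left_le_normalizer_right _ _ hn] at h
  obtain ⟨x, hx, v, hv, rfl⟩ := Set.mem_mul.1 h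
  obtain ⟨t, rfl⟩ := (Rel.mem_rootSubgroup hD hsl).1 hx
  exact ⟨t, by rw [inv_mul_cancel_left]; exact hv⟩

open Classical in
/-- the coefficient of an element of `U` at the `i`-th fundamental root -/
noncomputable def cf (hD : D ∈ dataList) (i : ℕ) (g : GL D.Idx F) : F :=
  if h : i < D.rank ∧ g ∈ D.posUnipotent F then Classical.choose (exists_decomp hD h.1 h.2) else 0

theorem cf_spec (hD : D ∈ dataList) {i : ℕ} (hi : i < D.rank) {g : GL D.Idx F} (hg : g ∈ D.posUnipotent F) :
    (xGL hD F (D.simple i) (cf hD i g))⁻¹ * g ∈ RootGen.gen D F (Oth D i) := by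
  rw [cf, dif_pos ⟨hi, hg⟩]; exact Classical.choose_spec (exists_decomp hD hi hg)

theorem cf_unique (hD : D ∈ dataList) {i : ℕ} (hi : i < D.rank) {g : GL D.Idx F} (hg : g ∈ D.posUnipotent F)
    {t : F} (ht : (xGL hD F (D.simple i) t)⁻¹ * g ∈ RootGen.gen D F (Oth D i)) : cf hD i g = t := by
  have h := mul_mem (cf_spec hD hi hg) (inv_mem ht)
  have e : (xGL hD F (D.simple i) (cf hD i g))⁻¹ * g * ((xGL hD F (D.simple i) t)⁻¹ * g)⁻¹ =
      xGL hD F (D.simple i) (-(cf hD i g) + t) := by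
    rw [← Rel.xGL_add hD (Rel.simple_lt hD hi), ← Rel.xGL_inv hD (Rel.simple_lt hD hi)]; group
  rw [e] at h
  have := simple_not_mem_oth hD hi h
  linear_combination -this

theorem cf_mul (hD : D ∈ dataList) {i : ℕ} (hi : i < D.rank) {g h : GL D.Idx F} (hg : g ∈ D.posUnipotent F)
    (hh : h ∈ D.posUnipotent F) : cf hD i (g * h) = cf hD i g + cf hD i h := by
  refine cf_unique hD hi (mul_mem hg hh) ?_
  have hsl := Rel.simple_lt hD hi
  set a := xGL hD F (D.simple i) (cf hD i g)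
  set b := xGL hD F (D.simple i) (cf hD i h)
  have hb : b ∈ D.posUnipotent F := xGL_mem_pos hD (N.simple_pos hD hi) _
  have := ((Subgroup.mem_normalizer_iff.1 (pos_normalizes_oth hD hi (inv_mem hb))) _).1 (cf_spec hD hi hg)
  have e : (xGL hD F (D.simple i) (cf hD i g + cf hD i h))⁻¹ * (g * h) =
      b⁻¹ * (a⁻¹ * g) * b⁻¹⁻¹ * (b⁻¹ * h) := by
    rw [← Rel.xGL_add hD hsl]; simp only [a, b]; group
  rw [e]
  exact mul_mem this (cf_spec hD hi hh)

theorem cf_one (hD : D ∈ dataList) {i : ℕ} (hi : i < D.rank) : cf hD i (1 : GL D.Idx F) = 0 := by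
  have := cf_mul (F := F) hD hi (one_mem (D.posUnipotent F)) (one_mem (D.posUnipotent F))
  rw [mul_one] at this
  simpa using this

theorem cf_inv (hD : D ∈ dataList) {i : ℕ} (hi : i < D.rank) {g : GL D.Idx F} (hg : g ∈ D.posUnipotent F) :
    cf hD i g⁻¹ = - cf hD i g := by
  have := cf_mul hD hi hg (inv_mem hg)
  rw [mul_inv_cancel, cf_one hD hi] at this
  linear_combination -this

theorem cf_root (hD : D ∈ dataList) {i r : ℕ} (hi : i < D.rank) (hr : D.IsPosRoot r) (t : F) :
    cf hD i (xGL hD F r t) = if r = D.simple i then t else 0 := by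
  refine cf_unique hD hi (xGL_mem_pos hD hr t) ?_
  split_ifs with h
  · subst h; rw [inv_mul_cancel]; exact one_mem _
  · rw [xGL_zero, inv_one, one_mul]; exact RootGen.xGL_mem_gen hD (show Oth D i r from ⟨hr, h⟩) t

theorem cf_eq_zero_iff (hD : D ∈ dataList) {i : ℕ} (hi : i < D.rank) {g : GL D.Idx F} (hg : g ∈ D.posUnipotent F) :
    cf hD i g = 0 ↔ g ∈ RootGen.gen D F (Oth D i) := by
  refine ⟨fun h => ?_, fun h => cf_unique hD hi hg ?_⟩
  · have := cf_spec hD hi hg
    rwa [h, xGL_zero, inv_one, one_mul] at this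
  · rwa [xGL_zero, inv_one, one_mul]

theorem cf_conj (hD : D ∈ dataList) {i : ℕ} (hi : i < D.rank) {g : GL D.Idx F} (hg : g ∈ D.posUnipotent F)
    {h : GL D.Idx F} (hh : h ∈ D.diagonalSubgroup F) {a : F}
    (ha : ∀ t, h * xGL hD F (D.simple i) t * h⁻¹ = xGL hD F (D.simple i) (a * t)) :
    cf hD i (h * g * h⁻¹) = a * cf hD i g := by
  refine cf_unique hD hi (((Subgroup.mem_normalizer_iff.1 (BH.diagonal_normalizes_pos hD hh)) g).1 hg) ?_
  have := ((Subgroup.mem_normalizer_iff.1 (BH.diagonal_le_normalizer hD (Oth D i) hh)) _).1 (cf_spec hD hi hg)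
  rw [← ha, show (h * xGL hD F (D.simple i) (cf hD i g) * h⁻¹)⁻¹ * (h * g * h⁻¹) =
    h * ((xGL hD F (D.simple i) (cf hD i g))⁻¹ * g) * h⁻¹ by group]
  exact this

/-- a torus element given by an exponent vector -/
noncomputable def tor (hD : D ∈ dataList) (u : Fˣ) (e : List (ℕ × ℤ)) : GL D.Idx F :=
  (e.map fun p => hGL hD F (D.simple p.1) ((u ^ p.2 : Fˣ) : F)).prod

theorem tor_spec (hD : D ∈ dataList) (u : Fˣ) {e : List (ℕ × ℤ)} (he : ∀ p ∈ e, p.1 < D.rank) :
    tor hD u e ∈ D.diagonalSubgroup F ∧ ∀ i < D.rank, ∀ t : F,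
      tor hD u e * xGL hD F (D.simple i) t * (tor hD u e)⁻¹ =
        xGL hD F (D.simple i) (((u ^ wt' D e i : Fˣ) : F) * t) := by
  induction e with
  | nil => exact ⟨one_mem _, fun i _ t => by simp [tor, wt']⟩
  | cons p e ih =>
    obtain ⟨h1, h2⟩ := ih fun q hq => he q (List.mem_cons_of_mem _ hq)
    have hp := he p List.mem_cons_self
    refine ⟨?_, fun i hi t => ?_⟩
    · rw [tor, List.map_cons, List.prod_cons]
      exact mul_mem (hGL_mem_diagonal hD (Rel.simple_lt hD hp) (Units.ne_zero _)) h1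
    · have e1 := Weight.h_conj_GL hD (Rel.simple_lt hD hp) (Rel.simple_lt hD hi)
        (Units.ne_zero (u ^ p.2)) (((u ^ wt' D e i : Fˣ) : F) * t)
      rw [Diag.pairing_simple hD hp, ← Units.val_zpow_eq_zpow_val, ← zpow_mul, ← mul_assoc, ← Units.val_mul,
        ← zpow_add] at e1
      rw [show wt' D (p :: e) i = p.2 * D.cartan p.1 (D.simple i) + wt' D e i by simp [wt'], ← e1, ← h2 i hi]
      simp only [tor, List.map_cons, List.prod_cons]
      group

theorem exists_unit_ne (q : ℕ) [Fintype F] (hq : Fintype.card F = q) {a : ℤ}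
    (ha : a.natAbs = 1 ∧ 3 ≤ q ∨ a.natAbs = 2 ∧ 4 ≤ q) : ∃ u : Fˣ, u ^ a ≠ 1 := by
  obtain ⟨g, hg⟩ := IsCyclic.exists_generator (α := Fˣ)
  refine ⟨g, fun h => ?_⟩
  have hord : orderOf g = q - 1 := by
    rw [orderOf_eq_card_of_forall_mem_zpowers hg, Nat.card_units, Nat.card_eq_fintype_card, hq]
  have h2 := orderOf_dvd_iff_zpow_eq_one.2 h
  rw [hord] at h2
  have h3 := Nat.le_of_dvd (by omega) (Int.natCast_dvd.1 h2)
  omega

variable [Fintype F]

theorem sum_squares (A : AddSubgroup F) (hA : ∀ s : F, s ^ 2 ∈ A) (l : F) : l ∈ A := by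
  by_cases h2 : ringChar F = 2
  · obtain ⟨s, rfl⟩ := FiniteField.isSquare_of_char_two h2 l
    rw [← sq]; exact hA s
  · have h : (2 : F) ≠ 0 := Ring.two_ne_zero h2
    have e : l = ((l + 1) / 2) ^ 2 - ((l - 1) / 2) ^ 2 := by field_simp; ring
    rw [e]; exact A.sub_mem (hA _) (hA _)

theorem le_of_le_sup_commutator {G : Type*} [Group G] {U X Q : Subgroup G} [Group.IsNilpotent U] (hX : X ≤ U)
    (hQ : Q ≤ U) (hXn : U ≤ Subgroup.normalizer (X : Set G)) (h : Q ≤ X ⊔ ⁅Q, U⁆) : Q ≤ X := by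
  set X' := X.subgroupOf U
  set Q' := Q.subgroupOf U
  have : X'.Normal := Subgroup.normal_subgroupOf_iff_le_normalizer hX |>.2 hXn
  have hc : ⁅Q', (⊤ : Subgroup U)⁆.map U.subtype = ⁅Q, U⁆ := by
    rw [Subgroup.map_commutator, Subgroup.map_subgroupOf_eq_of_le hQ, ← MonoidHom.range_eq_map,
      Subgroup.range_subtype]
  have h' : Q' ≤ X' ⊔ ⁅Q', (⊤ : Subgroup U)⁆ := by
    rw [← Subgroup.map_le_map_iff_of_injective U.subtype_injective, Subgroup.map_sup, hc,
      Subgroup.map_subgroupOf_eq_of_le hQ, Subgroup.map_subgroupOf_eq_of_le hX]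
    exact h
  set π := QuotientGroup.mk' X'
  have hb : Q'.map π ≤ ⁅Q'.map π, (⊤ : Subgroup (↥U ⧸ X'))⁆ := by
    refine (Subgroup.map_mono h').trans ?_
    rw [Subgroup.map_sup, Subgroup.map_commutator, QuotientGroup.map_mk'_self, bot_sup_eq,
      Subgroup.map_top_of_surjective π (QuotientGroup.mk'_surjective X')]
  have hl : ∀ n, Q'.map π ≤ (⊤ : Subgroup (↥U ⧸ X')).lowerCentralSeries n := by
    intro n
    induction n with
    | zero => rw [Subgroup.lowerCentralSeries_zero]; exact le_top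
    | succ n ih =>
      rw [Subgroup.lowerCentralSeries_succ]
      exact hb.trans (Subgroup.commutator_mono ih le_rfl)
  obtain ⟨n, hn⟩ := Subgroup.nilpotent_iff_lowerCentralSeries.1 (inferInstance : Group.IsNilpotent (↥U ⧸ X'))
  have hbot : Q'.map π = ⊥ := le_bot_iff.1 (hn ▸ hl n)
  rw [Subgroup.map_eq_bot_iff, QuotientGroup.ker_mk'] at hbot
  intro x hx
  exact hbot (show (⟨x, hQ hx⟩ : U) ∈ Q' from hx)

theorem simples_mem (hD : D ∈ dataList) (hq3 : 3 ≤ Fintype.card F) {two : Bool} (hsep : sepOK D two = true)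
    (htwo : two = true → 4 ≤ Fintype.card F) {X : Subgroup (GL D.Idx F)} (hXU : X ≤ D.posUnipotent F)
    (hXT : ∀ g ∈ D.diagonalSubgroup F, ∀ x ∈ X, g * x * g⁻¹ ∈ X)
    {i : ℕ} (hi : i < D.rank) (h0 : ∃ x ∈ X, cf hD i x ≠ 0) (u : F) :
    ∃ x ∈ X, cf hD i x = u ∧ ∀ j < D.rank, j ≠ i → cf hD j x = 0 := by
  have hkill : ∀ l : List ℕ, (∀ j ∈ l, j < D.rank ∧ j ≠ i) →
      ∃ x ∈ X, cf hD i x ≠ 0 ∧ ∀ j ∈ l, cf hD j x = 0 := by
    intro l
    induction l with
    | nil => intro _; obtain ⟨x, hx, hne⟩ := h0; exact ⟨x, hx, hne, by simp⟩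
    | cons j l ih =>
      intro hl
      obtain ⟨x, hx, hne, hz⟩ := ih fun k hk => hl k (List.mem_cons_of_mem _ hk)
      obtain ⟨hj, hji⟩ := hl j List.mem_cons_self
      have h := hsep
      simp only [sepOK, List.all_eq_true, List.mem_range, Bool.or_eq_true, beq_iff_eq, List.any_eq_true,
        Bool.and_eq_true, decide_eq_true_eq] at h
      obtain ⟨e, -, ⟨he, hej⟩, hei⟩ := (h i hi j hj).resolve_left (Ne.symm hji)
      obtain ⟨w, hw⟩ := exists_unit_ne (F := F) _ rfl (a := wt' D e i) (by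
        rcases hei with h1 | ⟨h1, h2⟩
        · exact Or.inl ⟨h1, hq3⟩
        · exact Or.inr ⟨h2, htwo h1⟩)
      obtain ⟨hT, hc⟩ := tor_spec hD w he
      have hy : tor hD w e * x * (tor hD w e)⁻¹ ∈ X := hXT _ hT _ hx
      have hcf : ∀ k < D.rank, cf hD k (tor hD w e * x * (tor hD w e)⁻¹ * x⁻¹) =
          (((w ^ wt' D e k : Fˣ) : F) - 1) * cf hD k x := fun k hk => by
        rw [cf_mul hD hk (hXU hy) (inv_mem (hXU hx)), cf_inv hD hk (hXU hx),
          cf_conj hD hk (hXU hx) hT (hc k hk)]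
        ring
      refine ⟨_, mul_mem hy (inv_mem hx), ?_, fun k hk => ?_⟩
      · rw [hcf i hi]
        exact mul_ne_zero (sub_ne_zero.2 fun e1 => hw (Units.ext e1)) hne
      · have hkr : k < D.rank := (hl k hk).1
        rw [hcf k hkr]
        rcases List.mem_cons.1 hk with rfl | hk'
        · rw [hej, zpow_zero, Units.val_one, sub_self, zero_mul]
        · rw [hz k hk', mul_zero]
  obtain ⟨x, hx, hne, hz⟩ := hkill ((List.range D.rank).filter (· != i)) fun j hj => by
    simp only [List.mem_filter, List.mem_range, bne_iff_ne] at hj; exact hj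
  let A : AddSubgroup F :=
    { carrier := {l | ∃ y ∈ X, cf hD i y = l * cf hD i x ∧ ∀ j < D.rank, j ≠ i → cf hD j y = 0}
      zero_mem' := ⟨1, one_mem _, by rw [cf_one hD hi, zero_mul], fun j hj _ => cf_one hD hj⟩
      add_mem' := fun {a b} ⟨y, hy, e1, e2⟩ ⟨z, hz', f1, f2⟩ => ⟨y * z, mul_mem hy hz', by
        rw [cf_mul hD hi (hXU hy) (hXU hz'), e1, f1, add_mul], fun j hj hji => by
        rw [cf_mul hD hj (hXU hy) (hXU hz'), e2 j hj hji, f2 j hj hji, add_zero]⟩
      neg_mem' := fun {a} ⟨y, hy, e1, e2⟩ => ⟨y⁻¹, inv_mem hy, by rw [cf_inv hD hi (hXU hy), e1, neg_mul],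
        fun j hj hji => by rw [cf_inv hD hj (hXU hy), e2 j hj hji, neg_zero]⟩ }
  have hA : ∀ s : F, s ^ 2 ∈ A := fun s => by
    by_cases hs : s = 0
    · subst hs; rw [zero_pow (by norm_num)]; exact A.zero_mem
    have hsl := Rel.simple_lt hD hi
    have hT := hGL_mem_diagonal (F := F) hD hsl hs
    refine ⟨_, hXT _ hT _ hx, ?_, fun j hj hji => ?_⟩
    · rw [cf_conj hD hi (hXU hx) hT (a := s ^ 2) fun t => ?_]
      rw [Weight.h_conj_GL hD hsl hsl hs, Diag.pairing_simple hD hi, (Rel.refl hD hi).cartan_p]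
      norm_cast
    · rw [cf_conj hD hj (hXU hx) hT (Weight.h_conj_GL hD hsl (Rel.simple_lt hD hj) hs),
        hz j (by simp [List.mem_filter, hj, hji]), mul_zero]
  obtain ⟨y, hy, e1, e2⟩ := sum_squares A hA (u / cf hD i x)
  exact ⟨y, hy, by rw [e1, div_mul_cancel₀ _ hne], e2⟩

omit [Fintype F] in
theorem rad_closed (hD : D ∈ dataList) (J : Set ℕ) : Canonical.Closed D (Rad D J) := by
  refine ⟨fun _ h => h.1, fun r s hr hs c hc => ⟨(Weight.commTerms_pos hD hr.1 hs.1 hc).1, fun h => ?_⟩⟩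
  refine hs.2 ((inSub_iff hD).2 ⟨hs.1.1, fun k hk hkJ => ?_⟩)
  have h0 := ((inSub_iff hD).1 h).2 k hk hkJ
  rw [(RootGen.commTerms_coef hD hk hr.1.1 hs.1.1 hc).2] at h0
  have h1 := mul_nonneg (Int.natCast_nonneg c.2.2.1) (Weight.coef_nonneg hD hk hr.1)
  have h2 : (c.2.2.2 : ℤ) * Weight.coef hD k s = 0 :=
    le_antisymm (by linarith) (mul_nonneg (Int.natCast_nonneg _) (Weight.coef_nonneg hD hk hs.1))
  exact (mul_eq_zero.1 h2).resolve_left (by have := (Orbit.commTerms_exp hc).2; omega)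

omit [Fintype F] in
/-- terms of a commutator with a parent in `U_J` -/
theorem rad_term (hD : D ∈ dataList) {J : Set ℕ} {r s : ℕ} (hr : D.IsPosRoot r) (hs : D.IsPosRoot s)
    (h : Rad D J r ∨ Rad D J s) {c : ℕ × ℤ × ℕ × ℕ} (hc : c ∈ D.commTerms r s) : Rad D J c.1 := by
  refine ⟨(Weight.commTerms_pos hD hr hs hc).1, fun hsub => ?_⟩
  have key : ∀ k, k < D.rank → k ∉ J → Weight.coef hD k r = 0 ∧ Weight.coef hD k s = 0 := fun k hk hkJ => by
    have h0 := ((inSub_iff hD).1 hsub).2 k hk hkJ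
    rw [(RootGen.commTerms_coef hD hk hr.1 hs.1 hc).2] at h0
    have h1 := mul_nonneg (Int.natCast_nonneg c.2.2.1) (Weight.coef_nonneg hD hk hr)
    have h2 := mul_nonneg (Int.natCast_nonneg c.2.2.2) (Weight.coef_nonneg hD hk hs)
    have e1 : (c.2.2.1 : ℤ) * Weight.coef hD k r = 0 := by linarith
    have e2 : (c.2.2.2 : ℤ) * Weight.coef hD k s = 0 := by linarith
    obtain ⟨p1, p2⟩ := Orbit.commTerms_exp hc
    exact ⟨(mul_eq_zero.1 e1).resolve_left (by omega), (mul_eq_zero.1 e2).resolve_left (by omega)⟩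
  rcases h with h | h
  · exact h.2 ((inSub_iff hD).2 ⟨hr.1, fun k hk hkJ => (key k hk hkJ).1⟩)
  · exact h.2 ((inSub_iff hD).2 ⟨hs.1, fun k hk hkJ => (key k hk hkJ).2⟩)

theorem cast_unitK (p : ℕ) [Fact p.Prime] [CharP F p] {M : ℤ}
    (h : unitK (if p = 2 ∨ p = 3 then p else 0) M = true) : (M : F) ≠ 0 := by
  rw [ne_eq, CharP.intCast_eq_zero_iff F p]
  by_cases hp : p = 2 ∨ p = 3
  · rw [if_pos hp, unitK, if_neg (by omega), bne_iff_ne] at h
    exact fun h' => h (Int.emod_eq_zero_of_dvd h')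
  · rw [if_neg hp, unitK, if_pos rfl, Bool.and_eq_true, decide_eq_true_eq, decide_eq_true_eq] at h
    intro h'
    have := Nat.le_of_dvd (by omega) (Int.natCast_dvd.1 h')
    have := (Fact.out : p.Prime).two_le
    omega

theorem cast_zeroK (p : ℕ) [Fact p.Prime] [CharP F p] {M : ℤ}
    (h : zeroK (if p = 2 ∨ p = 3 then p else 0) M = true) : (M : F) = 0 := by
  by_cases hp : p = 2 ∨ p = 3
  · rw [if_pos hp, zeroK, if_neg (by omega), beq_iff_eq] at h
    exact (CharP.intCast_eq_zero_iff F p M).2 (Int.dvd_of_emod_eq_zero h)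
  · rw [if_neg hp, zeroK, if_pos rfl, beq_iff_eq] at h
    rw [h, Int.cast_zero]

theorem root_mem_of_rule (hD : D ∈ dataList) (p : ℕ) [Fact p.Prime] [CharP F p] {two : Bool}
    (htwo : two = true → 4 ≤ Fintype.card F) {J : Set ℕ} {M : Subgroup (GL D.Idx F)} (hMU : M ≤ D.posUnipotent F)
    (hMn : D.posUnipotent F ≤ Subgroup.normalizer (M : Set (GL D.Idx F)))
    (hMc : ⁅D.unipotentRadical F J, D.posUnipotent F⁆ ≤ M) {K : List ℕ}
    (hK : ∀ q ∈ K, Rad D J q → ∀ t : F, xGL hD F q t ∈ M) {r s q : ℕ} (hr : D.IsPosRoot r) (hs : D.IsPosRoot s)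
    (hne : s ≠ r) (hneg : s ≠ D.neg r) (h : Rad D J r ∨ Rad D J s)
    (hrule : rule D (if p = 2 ∨ p = 3 then p else 0) two K r s q = true) (t : F) : xGL hD F q t ∈ M := by
  set κ := if p = 2 ∨ p = 3 then p else 0 with hκ
  set U := D.posUnipotent F
  have : (M.subgroupOf U).Normal := Subgroup.normal_subgroupOf_iff_le_normalizer hMU |>.2 hMn
  let π := QuotientGroup.mk' (M.subgroupOf U)
  have hπ : ∀ g : U, π g = 1 ↔ (g : GL D.Idx F) ∈ M := fun g => by
    rw [← MonoidHom.mem_ker, QuotientGroup.ker_mk', Subgroup.mem_subgroupOf]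
  set T := D.commTerms r s with hT
  have hTp : ∀ c ∈ T, D.IsPosRoot c.1 := fun c hc => (Weight.commTerms_pos hD hr hs hc).1
  let fu : F → F → (ℕ × ℤ × ℕ × ℕ) → U := fun a b c =>
    if hc : c ∈ T then ⟨xGL hD F c.1 ((c.2.1 : F) * (-a) ^ c.2.2.1 * b ^ c.2.2.2), xGL_mem_pos hD (hTp _ hc) _⟩
    else 1
  let f : F → F → (ℕ × ℤ × ℕ × ℕ) → ↥U ⧸ M.subgroupOf U := fun a b c => π (fu a b c)
  have hword : ∀ a b : F, (T.map (f a b)).prod = 1 := fun a b => by
    have e : (T.map (f a b)).prod = π ((T.map (fu a b)).prod) := by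
      rw [map_list_prod, List.map_map]; rfl
    rw [e, hπ, SubmonoidClass.coe_list_prod, List.map_map]
    have e2 : (T.map (Subtype.val ∘ fu a b)).prod = Rel.wordGL hD (D.commWord F r s a b) := by
      rw [Rel.wordGL, ChevalleyDatum.commWord, List.map_map]
      refine congrArg List.prod (List.map_congr_left fun c hc => ?_)
      simp [fu, show c ∈ T from hc]
    rw [e2, show Rel.wordGL hD (D.commWord F r s a b) = ⁅(xGL hD F s b)⁻¹, (xGL hD F r a)⁻¹⁆ by
      have := Rel.comm_GL hD hr.1 hs.1 hne hneg a b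
      rw [commutatorElement_def, inv_inv, inv_inv, mul_assoc _ (xGL hD F s b), this]; group]
    rcases h with h | h
    · refine hMc ?_
      rw [Subgroup.commutator_comm]
      refine Subgroup.commutator_mem_commutator (inv_mem (xGL_mem_pos hD hs _)) (inv_mem ?_)
      rw [unipotentRadical_eq]; exact RootGen.xGL_mem_gen hD h _
    · exact hMc (Subgroup.commutator_mem_commutator (inv_mem (by rw [unipotentRadical_eq]; exact RootGen.xGL_mem_gen hD h _))
        (inv_mem (xGL_mem_pos hD hr _)))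
  have hone : ∀ (a b : F), ∀ c ∈ T, (zeroK κ c.2.1 || K.contains c.1) = true → f a b c = 1 := by
    intro a b c hc hzk
    show π (fu a b c) = 1
    rw [hπ, show fu a b c = ⟨_, _⟩ from dif_pos hc]
    rw [Bool.or_eq_true, List.contains_iff_mem] at hzk
    rcases hzk with hz | hk
    · show xGL hD F c.1 _ ∈ M
      rw [cast_zeroK p hz, zero_mul, zero_mul, xGL_zero]; exact one_mem _
    · exact hK _ hk (rad_term hD hr hs h hc) _
  simp only [rule] at hrule
  split at hrule
  case h_2 => exact absurd hrule (by simp)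
  case h_1 q' M0 i k htg =>
    obtain ⟨hT0, hq'⟩ : (q', M0, i, k) ∈ T ∧ q' = q := by
      have hh : (q', M0, i, k) ∈ (D.commTerms r s).filter fun c => c.1 == q := htg ▸ List.mem_singleton_self _
      rw [List.mem_filter, beq_iff_eq] at hh
      exact hh
    subst hq'
    obtain ⟨l1, l2, hl⟩ := List.append_of_mem hT0
    have hoth : ∀ c, c ∈ l1 ∨ c ∈ l2 → c ∈ T ∧ c.1 ≠ q' := fun c hc => by
      refine ⟨by rw [hl]; simp only [List.mem_append, List.mem_cons]; tauto, fun e => ?_⟩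
      have h1 : (l1.filter fun c => c.1 == q').length + (l2.filter fun c => c.1 == q').length = 0 := by
        have h2 := congrArg List.length htg
        rw [← hT, hl, List.filter_append, List.filter_cons_of_pos (by simp), List.length_append, List.length_cons,
          List.length_cons, List.length_nil] at h2
        omega
      rcases hc with hc | hc
      · have := List.length_pos_of_mem ((List.mem_filter (p := fun c => c.1 == q')).2 ⟨hc, by simpa using e⟩)
        omega
      · have := List.length_pos_of_mem ((List.mem_filter (p := fun c => c.1 == q')).2 ⟨hc, by simpa using e⟩)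
        omega
    have hval : ∀ a b : F, f a b (q', M0, i, k) =
        π ⟨xGL hD F q' ((M0 : F) * (-a) ^ i * b ^ k), xGL_mem_pos hD (hTp _ hT0) _⟩ := fun a b =>
      congrArg π (dif_pos hT0)
    have hsplit : ∀ a b a' b' : F, (∀ c, c ∈ l1 ∨ c ∈ l2 → f a b c = f a' b' c) →
        f a b (q', M0, i, k) = f a' b' (q', M0, i, k) := fun a b a' b' e => by
      have h1 := (hword a b).trans (hword a' b').symm
      rw [hl] at h1
      simp only [List.map_append, List.map_cons, List.prod_append, List.prod_cons] at h1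
      rw [List.map_congr_left fun c hc => e c (Or.inl hc), List.map_congr_left fun c hc => e c (Or.inr hc)] at h1
      exact mul_right_cancel (mul_left_cancel h1)
    simp only [Bool.and_eq_true, Bool.or_eq_true, List.all_eq_true, beq_iff_eq, List.mem_filter, bne_iff_ne] at hrule
    obtain ⟨hM0, hcase⟩ := hrule
    have hM0' : (M0 : F) ≠ 0 := cast_unitK p hM0
    obtain ⟨p1, p2⟩ := Orbit.commTerms_exp hT0
    simp only at p1 p2
    rcases hcase with ⟨hik, hex⟩ | ⟨⟨⟨htw, hi1⟩, hk⟩, hrest⟩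
    · have hz : ∀ a b : F, xGL hD F q' ((M0 : F) * (-a) ^ i * b ^ k) ∈ M := fun a b => by
        have h1 := hsplit a b 0 0 fun c hc => by
          obtain ⟨hcT, hcq⟩ := hoth c hc
          have h3 : (zeroK κ c.2.1 || K.contains c.1) = true := by rw [Bool.or_eq_true]; exact hex c ⟨hcT, hcq⟩
          rw [hone a b c hcT h3, hone 0 0 c hcT h3]
        rw [hval, hval] at h1
        have h2 : π ⟨xGL hD F q' ((M0 : F) * (-(0 : F)) ^ i * (0 : F) ^ k), xGL_mem_pos hD (hTp _ hT0) _⟩ = 1 := by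
          rw [hπ]; show xGL hD F q' _ ∈ M
          rw [zero_pow (by omega), mul_zero, xGL_zero]; exact one_mem _
        rw [h2, hπ] at h1
        exact h1
      rcases hik with rfl | rfl
      · have := hz (-(t / M0)) 1
        rwa [neg_neg, pow_one, one_pow, mul_one, mul_div_cancel₀ _ hM0'] at this
      · have := hz (-1) (t / M0)
        rwa [neg_neg, one_pow, mul_one, pow_one, mul_div_cancel₀ _ hM0'] at this
    · subst hi1
      obtain ⟨u, hu⟩ := exists_unit_ne (F := F) _ rfl (a := ((k - 1 : ℕ) : ℤ)) (by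
        rcases hk with rfl | rfl
        · exact Or.inl ⟨rfl, le_trans (by norm_num) (htwo htw)⟩
        · exact Or.inr ⟨rfl, htwo htw⟩)
      rw [zpow_natCast] at hu
      have hu' : (u : F) ^ (k - 1) - 1 ≠ 0 := sub_ne_zero.2 fun e => hu (Units.ext (by rw [Units.val_pow_eq_pow_val]; exact e))
      have hu0 : (u : F) ≠ 0 := Units.ne_zero u
      set w := t / ((M0 : F) * ((u : F) ^ (k - 1) - 1)) with hw
      have h1 := hsplit (-(w / u)) u (-w) 1 fun c hc => by
        obtain ⟨hcT, hcq⟩ := hoth c hc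
        rcases or_assoc.1 (hrest c ⟨hcT, hcq⟩) with h11 | h3
        · show π (fu _ _ c) = π (fu _ _ c)
          refine congrArg π (Subtype.ext ?_)
          simp only [fu, dif_pos hcT]
          congr 1
          rw [h11.1, h11.2, pow_one, pow_one, neg_neg, neg_neg, mul_assoc, div_mul_cancel₀ _ hu0]
          ring
        · have h3' : (zeroK κ c.2.1 || K.contains c.1) = true := by rw [Bool.or_eq_true]; exact h3
          rw [hone _ _ c hcT h3', hone _ _ c hcT h3']
      rw [hval, hval, ← mul_inv_eq_one, ← map_inv, ← map_mul, hπ] at h1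
      have hql := (hTp _ hT0).1
      rw [Subgroup.coe_mul, Subgroup.coe_inv, Subtype.coe_mk, Subtype.coe_mk, Rel.xGL_inv hD hql,
        Rel.xGL_add hD hql] at h1
      convert h1 using 2
      obtain ⟨m, rfl⟩ : ∃ m, k = m + 1 := ⟨k - 1, by omega⟩
      rw [Nat.add_sub_cancel] at hw hu'
      rw [pow_one, pow_one, neg_neg, neg_neg, one_pow, mul_one, pow_succ]
      rw [show (M0 : F) * (w / u) * ((u : F) ^ m * u) = (M0 : F) * w * (u : F) ^ m by field_simp]
      rw [show (M0 : F) * w * (u : F) ^ m + -((M0 : F) * w) = ((M0 : F) * ((u : F) ^ m - 1)) * w by ring, hw,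
        mul_div_cancel₀ _ (mul_ne_zero hM0' hu')]

theorem clos_mem (hD : D ∈ dataList) (p : ℕ) [Fact p.Prime] [CharP F p] {two : Bool}
    (htwo : two = true → 4 ≤ Fintype.card F) {J : Set ℕ} {M : Subgroup (GL D.Idx F)} (hMU : M ≤ D.posUnipotent F)
    (hMn : D.posUnipotent F ≤ Subgroup.normalizer (M : Set (GL D.Idx F)))
    (hMc : ⁅D.unipotentRadical F J, D.posUnipotent F⁆ ≤ M) (n : ℕ) :
    ∀ q ∈ clos D (if p = 2 ∨ p = 3 then p else 0) two n, Rad D J q → ∀ t : F, xGL hD F q t ∈ M := by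
  induction n with
  | zero => simp [clos]
  | succ n ih =>
    intro q hq hqR t
    simp only [clos, good, List.mem_filter, List.mem_range, Bool.and_eq_true, decide_eq_true_eq, List.any_eq_true,
      Bool.or_eq_true, bne_iff_ne] at hq
    obtain ⟨hql, -, a, ha, r, -, ⟨⟨⟨⟨hrh, hrq⟩, hne⟩, hneg⟩, hneg'⟩, hrule⟩ := hq
    have hrp : D.IsPosRoot r := (Weight.pos_iff hD (hrq.trans hql)).2 hrh
    have hap := N.simple_pos hD ha
    have key : ∀ x y, D.IsPosRoot x → D.IsPosRoot y → rule D (if p = 2 ∨ p = 3 then p else 0) two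
        (clos D (if p = 2 ∨ p = 3 then p else 0) two n) x y q = true → Rad D J x ∨ Rad D J y := by
      intro x y hx hy hr'
      simp only [rule] at hr'
      split at hr'
      case h_2 => exact absurd hr' (by simp)
      case h_1 q' M0 i k htg =>
        have hh : (q', M0, i, k) ∈ (D.commTerms x y).filter fun c => c.1 == q := htg ▸ List.mem_singleton_self _
        rw [List.mem_filter, beq_iff_eq] at hh
        by_contra hcon
        rw [not_or] at hcon
        have hxs : D.InRootSub J x := by by_contra h'; exact hcon.1 ⟨hx, h'⟩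
        have hys : D.InRootSub J y := by by_contra h'; exact hcon.2 ⟨hy, h'⟩
        refine hqR.2 ((inSub_iff hD).2 ⟨hql, fun j hj hjJ => ?_⟩)
        have := (RootGen.commTerms_coef hD hj hx.1 hy.1 hh.1).2
        rw [show (q', M0, i, k).1 = q from hh.2, ((inSub_iff hD).1 hxs).2 j hj hjJ,
          ((inSub_iff hD).1 hys).2 j hj hjJ] at this
        simpa using this
    rcases hrule with h | h
    · exact root_mem_of_rule hD p htwo hMU hMn hMc ih hap hrp hne hneg (key _ _ hap hrp h) h t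
    · exact root_mem_of_rule hD p htwo hMU hMn hMc ih hrp hap (Ne.symm hne) hneg' (key _ _ hrp hap h) h t

omit [Fintype F] in
theorem le_radical (hD : D ∈ dataList) {X : Subgroup (GL D.Idx F)} (hXU : X ≤ D.posUnipotent F) {J : Set ℕ}
    (hJX : ∀ j ∈ J, j < D.rank → X ≤ RootGen.gen D F (Oth D j))
    (hn : ∀ j ∈ J, j < D.rank → ∀ x ∈ X,
      (nGL hD F (D.simple j) 1)⁻¹ * x * nGL hD F (D.simple j) 1 ∈ X) :
    X ≤ D.unipotentRadical F J := by
  classical
  set S : ℕ → Prop := fun r => D.IsPosRoot r ∧ ∀ Q, Canonical.Closed D Q → X ≤ RootGen.gen D F Q → Q r with hS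
  have hSc : Canonical.Closed D S :=
    ⟨fun r h => h.1, fun r s hr hs c hc => ⟨(Weight.commTerms_pos hD hr.1 hs.1 hc).1,
      fun Q hQ hXQ => hQ.comm r s (hr.2 Q hQ hXQ) (hs.2 Q hQ hXQ) c hc⟩⟩
  have hXS : X ≤ RootGen.gen D F S := fun x hx => by
    obtain ⟨t, ⟨ht0, ht⟩, hu⟩ := U.exists_unique_prod hD (hXU hx)
    refine (Canonical.mem_gen_iff hD hSc).2 ⟨t, fun r hr => ?_, ht⟩
    by_cases hp : D.IsPosRoot r
    · simp only [hS, not_and, not_forall] at hr
      obtain ⟨Q, hQ, hXQ, hQr⟩ := hr hp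
      obtain ⟨t', ht', e'⟩ := (Canonical.mem_gen_iff hD hQ).1 (hXQ hx)
      rw [← hu t' ⟨fun r' hr' => ht' r' fun h => hr' (hQ.pos r' h), e'⟩]
      exact ht' r hQr
    · exact ht0 r hp
  have hout : ∀ r, D.IsPosRoot r → D.InRootSub J r → ¬ S r := by
    intro r hr hrJ
    refine sub_induction hD (P := fun r => ¬ S r) (fun j hj hjr h => ?_) (fun j hj hjr r hr ih h => ?_) hr hrJ
    · exact (h.2 _ (oth_closed hD hjr) (hJX j hj hjr)).2 rfl
    · have hl : ∀ i ∈ [j], i < D.rank := by simpa using hjr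
      have hne : ∀ s, S s → s ≠ D.simple j := fun s hs => (hs.2 _ (oth_closed hD hjr) (hJX j hj hjr)).2
      let Q : ℕ → Prop := fun s => D.IsPosRoot s ∧ S (N.act D [j] s)
      have hQ : Canonical.Closed D Q := ⟨fun s hs => hs.1, fun a b ha hb c hc => by
        refine ⟨(Weight.commTerms_pos hD ha.1 hb.1 hc).1, ?_⟩
        obtain ⟨c', hc', e⟩ := Abstract.commTerms_act hD hl ha.1.1 hb.1.1 hc
        exact e ▸ hSc.comm _ _ ha.2 hb.2 c' hc'⟩
      have hrefl : ∀ s, s < D.nroots → N.act D [j] (N.act D [j] s) = s := fun s hs => by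
        simpa using Weyl.act_reverse_act hD hl hs
      have hXQ : X ≤ RootGen.gen D F Q := fun x hx => by
        have hle : RootGen.gen D F S ≤ (RootGen.gen D F Q).comap (MulAut.conj (nGL hD F (D.simple j) 1)).toMonoidHom :=
          RootGen.gen_le hD fun s hs t => by
            rw [Subgroup.mem_comap, MulEquiv.coe_toMonoidHom, MulAut.conj_apply, Rel.conj_GL hD hjr hs.1.1]
            refine RootGen.xGL_mem_gen hD (show Q _ from ⟨Weight.reflect_pos hD hjr hs.1 (hne s hs), ?_⟩) _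
            show S (N.act D [j] (N.act D [j] s))
            rw [hrefl s hs.1.1]; exact hs
        have := hle (hXS (hn j hj hjr x hx))
        rw [Subgroup.mem_comap, MulEquiv.coe_toMonoidHom, MulAut.conj_apply] at this
        rwa [show nGL hD F (D.simple j) 1 * ((nGL hD F (D.simple j) 1)⁻¹ * x * nGL hD F (D.simple j) 1) *
          (nGL hD F (D.simple j) 1)⁻¹ = x by group] at this
      have h2 := (h.2 Q hQ hXQ).2
      change S (N.act D [j] (N.act D [j] r)) at h2
      rw [hrefl r hr.1] at h2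
      exact ih h2
  refine hXS.trans ?_
  rw [unipotentRadical_eq]
  exact RootGen.gen_mono fun r hr => ⟨hr.1, fun h => hout r hr.1 h hr⟩

/-- a weakly closed subgroup of `U` is a unipotent radical -/
theorem exists_radical (hD : D ∈ dataList) (h2 : Fintype.card F ≠ 2)
    (h3 : D ∈ [chevG2, chevB2, chevD4, chevF4] → Fintype.card F ≠ 3)
    {X : Subgroup (GL D.Idx F)} (hXU : X ≤ D.posUnipotent F)
    (hwc : ∀ g ∈ D.group F, X.map (MulAut.conj g).toMonoidHom ≤ D.posUnipotent F →
      X.map (MulAut.conj g).toMonoidHom = X) :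
    ∃ J : Set ℕ, (∀ j ∈ J, j < D.rank) ∧ X = D.unipotentRadical F J := by
  obtain ⟨p, hp⟩ := CharP.exists F
  have : Fact p.Prime := ⟨CharP.char_is_prime F p⟩
  obtain ⟨two, n, hsep, hcov, htwo⟩ := exists_cert hD
  have hq3 : 3 ≤ Fintype.card F := by have := Fintype.one_lt_card (α := F); omega
  have hq4 : two = true → 4 ≤ Fintype.card F := fun h => by have := h3 (htwo h); omega
  have hconj : ∀ g ∈ D.group F, (∀ x ∈ X, g * x * g⁻¹ ∈ D.posUnipotent F) → ∀ x ∈ X, g * x * g⁻¹ ∈ X :=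
    fun g hg h x hx => by
      have e := hwc g hg (by rintro _ ⟨y, hy, rfl⟩; simpa using h y hy)
      exact e ▸ ⟨x, hx, rfl⟩
  have hposG : D.posUnipotent F ≤ D.group F := RootGen.gen_le hD fun r _ t => xGL_mem_group hD r t
  have hXn : ∀ u ∈ D.posUnipotent F, ∀ x ∈ X, u * x * u⁻¹ ∈ X := fun u hu =>
    hconj u (hposG hu) fun y hy => mul_mem (mul_mem hu (hXU hy)) (inv_mem hu)
  have hXT : ∀ g ∈ D.diagonalSubgroup F, ∀ x ∈ X, g * x * g⁻¹ ∈ X := fun g hg =>
    hconj g (diagonal_le_group hD hg) fun y hy =>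
      ((Subgroup.mem_normalizer_iff.1 (BH.diagonal_normalizes_pos hD hg)) y).1 (hXU hy)
  set J : Set ℕ := {j | j < D.rank ∧ ∀ x ∈ X, cf hD j x = 0} with hJ
  have hJX : ∀ j ∈ J, j < D.rank → X ≤ RootGen.gen D F (Oth D j) := fun j hj hjr x hx =>
    (cf_eq_zero_iff hD hjr (hXU hx)).1 (hj.2 x hx)
  have hn : ∀ j ∈ J, j < D.rank → ∀ x ∈ X,
      (nGL hD F (D.simple j) 1)⁻¹ * x * nGL hD F (D.simple j) 1 ∈ X := by
    intro j hj hjr x hx
    have hng : (nGL hD F (D.simple j) 1)⁻¹ ∈ D.group F := inv_mem (nGL_mem_group hD _ _)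
    have hP : nGL hD F (D.simple j) 1 ∈ D.parabolicSubgroup F {j} :=
      Subgroup.mem_sup_right (Subgroup.subset_closure ⟨j, rfl, hjr, nGL_val hD _ _⟩)
    have hle : D.unipotentRadical F {j} ≤ D.posUnipotent F := by
      rw [← oth_eq_rad hD hjr]; exact RootGen.gen_mono fun r hr => hr.1
    have := hconj _ hng (fun y hy => hle (((Subgroup.mem_normalizer_iff.1
      (le_normalizer hD {j} (inv_mem hP))) y).1 (oth_eq_rad (F := F) hD hjr ▸ hJX j hj hjr hy))) x hx
    rwa [inv_inv] at this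
  refine ⟨J, fun j hj => hj.1, le_antisymm (le_radical hD hXU hJX hn) ?_⟩
  set Q := D.unipotentRadical F J with hQ
  set U := D.posUnipotent F with hU
  set M := X ⊔ ⁅Q, U⁆ with hM
  have hQU : Q ≤ U := by rw [hQ, unipotentRadical_eq]; exact RootGen.gen_mono fun r hr => hr.1
  have hXnorm : U ≤ Subgroup.normalizer (X : Set (GL D.Idx F)) := fun u hu => by
    refine Subgroup.mem_normalizer_iff.2 fun x => ⟨hXn u hu x, fun h => ?_⟩
    have := hXn u⁻¹ (inv_mem hu) _ h
    rwa [show u⁻¹ * (u * x * u⁻¹) * u⁻¹⁻¹ = x by group] at this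
  have hQn : U ≤ Subgroup.normalizer (Q : Set (GL D.Idx F)) :=
    (RootGen.gen_le hD (P := D.IsPosRoot) fun r hr t =>
      Subgroup.mem_sup_left (BN.mem_borel_of_pos hD hr t)).trans (le_normalizer hD J)
  have hMU : M ≤ U := sup_le hXU ((Subgroup.commutator_mono hQU le_rfl).trans (Subgroup.commutator_le_self U))
  have hMn : U ≤ Subgroup.normalizer (M : Set (GL D.Idx F)) := fun u hu => by
    have hmap : ∀ v ∈ U, M.map (MulAut.conj v).toMonoidHom ≤ M := fun v hv => by
      rw [hM, Subgroup.map_sup, Subgroup.map_commutator]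
      refine sup_le_sup (by rintro _ ⟨x, hx, rfl⟩; exact hXn v hv x hx) (Subgroup.commutator_mono ?_ ?_)
      · rintro _ ⟨x, hx, rfl⟩; exact ((Subgroup.mem_normalizer_iff.1 (hQn hv)) x).1 hx
      · rintro _ ⟨x, hx, rfl⟩; exact mul_mem (mul_mem hv hx) (inv_mem hv)
    refine Subgroup.mem_normalizer_iff.2 fun x => ⟨fun h => hmap u hu ⟨x, h, rfl⟩, fun h => ?_⟩
    have := hmap u⁻¹ (inv_mem hu) ⟨_, h, rfl⟩
    simpa [mul_assoc] using this
  have hclos := clos_mem hD p hq4 hMU hMn (le_sup_right : ⁅Q, U⁆ ≤ M) n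
  have hcovered : ∀ r, Rad D J r → (∀ a < D.rank, D.simple a ≠ r) → ∀ t : F, xGL hD F r t ∈ M := fun r hr hs =>
    hclos r (by
      have h := hcov
      simp only [covOK, List.all_eq_true, List.mem_range, Bool.or_eq_true, decide_eq_true_eq, List.any_eq_true,
        beq_iff_eq, List.contains_iff_mem] at h
      have hκ : (if p = 2 ∨ p = 3 then p else 0) ∈ [0, 2, 3] := by
        split_ifs with hh
        · rcases hh with rfl | rfl <;> simp
        · simp
      rcases h _ hκ r hr.1.1 with (h1 | ⟨a, ha, e⟩) | h1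
      · have := (Weight.pos_iff hD hr.1.1).1 hr.1; omega
      · exact absurd e (hs a ha)
      · exact h1) hr
  have hQM : Q ≤ M := by
    rw [hQ, unipotentRadical_eq]
    refine RootGen.gen_le hD fun r hr t => ?_
    by_cases hs : ∀ a < D.rank, D.simple a ≠ r
    · exact hcovered r hr hs t
    push Not at hs
    obtain ⟨a, ha, rfl⟩ := hs
    have h0 : ∃ x ∈ X, cf hD a x ≠ 0 := by
      by_contra hcon
      push Not at hcon
      exact hr.2 ((simple_inSub hD ha).2 ⟨ha, hcon⟩)
    obtain ⟨x, hx, he, hz⟩ := simples_mem hD hq3 hsep hq4 hXU hXT ha h0 t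
    have hxQ : x ∈ RootGen.gen D F (Rad D J) := by
      rw [← unipotentRadical_eq]; exact le_radical hD hXU hJX hn hx
    obtain ⟨c, hc0, hxe⟩ := (Canonical.mem_gen_iff hD (rad_closed hD J)).1 hxQ
    -- in the quotient by `M` only the coefficient at `a` is left
    have : (M.subgroupOf U).Normal := Subgroup.normal_subgroupOf_iff_le_normalizer hMU |>.2 hMn
    let π := QuotientGroup.mk' (M.subgroupOf U)
    have hπ : ∀ g : U, π g = 1 ↔ (g : GL D.Idx F) ∈ M := fun g => by
      rw [← MonoidHom.mem_ker, QuotientGroup.ker_mk', Subgroup.mem_subgroupOf]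
    have hmemU : ∀ l : List ℕ, (∀ r ∈ l, D.IsPosRoot r) → CfsgLib.Chev.U.prodL hD c l ∈ D.posUnipotent F :=
      fun l hl => Subgroup.list_prod_mem _ fun g hg => by
        obtain ⟨r', hr', rfl⟩ := List.mem_map.1 hg; exact xGL_mem_pos hD (hl r' hr') _
    have hpr : ∀ r, r ∈ D.posRoots ↔ r < D.nroots ∧ D.IsPosRoot r := fun r => by
      simp [ChevalleyDatum.posRoots]
    have hnd : D.posRoots.Nodup := by rw [CfsgLib.Chev.U.posRoots_eq hD]; exact List.nodup_range'
    have hcs : ∀ b < D.rank, c (D.simple b) = cf hD b x := by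
      intro b hb
      have hcfl : ∀ l : List ℕ, (∀ r ∈ l, D.IsPosRoot r) → l.Nodup →
          cf hD b (CfsgLib.Chev.U.prodL hD c l) = if D.simple b ∈ l then c (D.simple b) else 0 := by
        intro l
        induction l with
        | nil => intro _ _; simp [CfsgLib.Chev.U.prodL, cf_one hD hb]
        | cons r l ih =>
          intro hl hnd
          have hl' : ∀ r ∈ l, D.IsPosRoot r := fun r hr => hl r (List.mem_cons_of_mem _ hr)
          rw [CfsgLib.Chev.U.prodL_cons, cf_mul hD hb (xGL_mem_pos hD (hl r List.mem_cons_self) _)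
            (hmemU l hl'),
            cf_root hD hb (hl r List.mem_cons_self), ih hl' (List.nodup_cons.1 hnd).2]
          by_cases e : r = D.simple b
          · subst e; simp [(List.nodup_cons.1 hnd).1]
          · simp [e, Ne.symm e]
      rw [hxe, hcfl _ (fun r hr => ((hpr r).1 hr).2) hnd,
        if_pos ((hpr _).2 ⟨Rel.simple_lt hD hb, N.simple_pos hD hb⟩)]
    have hlist : ∀ l : List ℕ, (∀ r ∈ l, D.IsPosRoot r) → l.Nodup → ∀ (hm : CfsgLib.Chev.U.prodL hD c l ∈ U),
        π ⟨CfsgLib.Chev.U.prodL hD c l, hm⟩ =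
          if D.simple a ∈ l then π ⟨xGL hD F (D.simple a) t, xGL_mem_pos hD (N.simple_pos hD ha) t⟩ else 1 := by
      intro l
      induction l with
      | nil => intro _ _ hm; rw [if_neg (by simp)]; exact (hπ _).2 (by simp [CfsgLib.Chev.U.prodL])
      | cons r l ih =>
        intro hl hnd hm
        have hl' : ∀ r ∈ l, D.IsPosRoot r := fun r hr => hl r (List.mem_cons_of_mem _ hr)
        have hm' : CfsgLib.Chev.U.prodL hD c l ∈ U := Subgroup.list_prod_mem _ fun g hg => by
          obtain ⟨r', hr', rfl⟩ := List.mem_map.1 hg; exact xGL_mem_pos hD (hl' r' hr') _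
        have e1 : (⟨CfsgLib.Chev.U.prodL hD c (r :: l), hm⟩ : U) =
            ⟨xGL hD F r (c r), xGL_mem_pos hD (hl r List.mem_cons_self) _⟩ * ⟨CfsgLib.Chev.U.prodL hD c l, hm'⟩ :=
          Subtype.ext (CfsgLib.Chev.U.prodL_cons hD c r l)
        rw [e1, map_mul, ih hl' (List.nodup_cons.1 hnd).2 hm']
        by_cases e : r = D.simple a
        · subst e
          rw [if_neg (List.nodup_cons.1 hnd).1, mul_one, if_pos List.mem_cons_self]
          congr 2
          rw [hcs a ha, he]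
        · have h1 : π ⟨xGL hD F r (c r), xGL_mem_pos hD (hl r List.mem_cons_self) _⟩ = 1 := by
            rw [hπ]
            by_cases hrR : Rad D J r
            · by_cases hrs : ∀ b < D.rank, D.simple b ≠ r
              · exact hcovered r hrR hrs _
              · push Not at hrs
                obtain ⟨b, hb, rfl⟩ := hrs
                show xGL hD F (D.simple b) _ ∈ M
                rw [hcs b hb, hz b hb (fun hba => e (hba ▸ rfl)), xGL_zero]; exact one_mem _
            · show xGL hD F r _ ∈ M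
              rw [hc0 r hrR, xGL_zero]; exact one_mem _
          rw [h1, one_mul]
          simp [List.mem_cons, Ne.symm e]
    have hm : CfsgLib.Chev.U.prodL hD c D.posRoots ∈ U := hxe ▸ hXU hx
    have hfin := hlist D.posRoots
      (fun r hr => ((hpr r).1 hr).2) hnd hm
    rw [if_pos ((hpr _).2 ⟨Rel.simple_lt hD ha, N.simple_pos hD ha⟩), (hπ _).2 (show CfsgLib.Chev.U.prodL hD c D.posRoots ∈ M from
        hxe ▸ Subgroup.mem_sup_left hx)] at hfin
    exact (hπ _).1 hfin.symm
  have : Group.IsNilpotent (D.posUnipotent F) := posUnipotent_nilpotent hD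
  exact le_of_le_sup_commutator hXU hQU hXnorm hQM

end CfsgLib.Chev.WeaklyClosed
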